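import Mathlib
import Cfsg.Agent.Lib.Frob.TIHall
import Cfsg.Agent.Lib.Frob.Action
import Cfsg.Agent.Lib.Frob.Complement
import Cfsg.Agent.Lib.Core.Basic
import Cfsg.Agent.Lib.Core.Commutator
import Cfsg.Agent.Lib.Core.MinNormal
import Cfsg.Agent.Lib.Coprime.Sylow
import Cfsg.Agent.Lib.Coprime.Abelian

/-!
# TI-subgroups which are Hall in their normalizer, in separable groups
-/

set_option autoImplicit false

namespace CfsgLib.FTApp

open scoped Pointwise commutatorElement
open Subgroup

variable {G : Type*} [Group G]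

/-- The action of a subgroup normalizing `K` on the abelianization of `K`. -/
def abAct (K A : Subgroup G) (hA : A ≤ normalizer (K : Set G)) : A →* MulAut (Abelianization K) :=
  MonoidHom.mk' (fun a => (K.normalizerMonoidHom ⟨a, hA a.2⟩).abelianizationCongr) (by
    intro a b
    ext v
    obtain ⟨k, rfl⟩ := QuotientGroup.mk_surjective v
    show Abelianization.of _ = Abelianization.of _
    congr 1
    apply Subtype.ext
    show ((a * b : A) : G) * k * ((a * b : A) : G)⁻¹ = a * (b * k * (b : G)⁻¹) * (a : G)⁻¹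
    rw [coe_mul]; group)

theorem mem_commutator_iff_coe {K : Subgroup G} (x : K) :
    x ∈ _root_.commutator K ↔ (x : G) ∈ ⁅K, K⁆ := by
  rw [← map_subtype_commutator]
  exact ⟨fun h => mem_map_of_mem _ h, fun ⟨y, hy, e⟩ => (Subtype.ext e : y = x) ▸ hy⟩

theorem abAct_fix_iff (K A : Subgroup G) (hA : A ≤ normalizer (K : Set G)) (a : A) (k : K) :
    abAct K A hA a (Abelianization.of k) = Abelianization.of k ↔
      (a : G) * k * (a : G)⁻¹ * (k : G)⁻¹ ∈ ⁅K, K⁆ := by
  have e : abAct K A hA a (Abelianization.of k) =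
      Abelianization.of (K.normalizerMonoidHom ⟨a, hA a.2⟩ k) := rfl
  rw [e, ← mul_inv_eq_one, ← map_inv, ← map_mul, ← MonoidHom.mem_ker, Abelianization.ker_of,
    mem_commutator_iff_coe]
  rfl

/-- A coprime action in which all non-identity elements have the same fixed points gives a
fixed-point-free action on a section. -/
theorem exists_fpf_action [Finite G] {O A : Subgroup G} (hN : A ≤ normalizer (O : Set G))
    (hcop : (Nat.card A).Coprime (Nat.card O)) (hs : Group.IsSolvable A ∨ Group.IsSolvable O)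
    (hC : ∀ a ∈ A, a ≠ 1 → O ⊓ centralizer {a} ≤ centralizer (A : Set G))
    (hnc : ¬ O ≤ centralizer (A : Set G)) :
    ∃ (K : Subgroup G) (hA : A ≤ normalizer (K : Set G)), Nontrivial (Abelianization K) ∧
      ∀ a : A, a ≠ 1 → ∀ v, abAct K A hA a v = v → v = 1 := by
  obtain ⟨p, P, hp, hPO, hP, hAP, hPn⟩ : ∃ (p : ℕ) (P : Subgroup G), p.Prime ∧ P ≤ O ∧ IsPGroup p P ∧
      A ≤ normalizer (P : Set G) ∧ ¬ P ≤ centralizer (A : Set G) := by
    by_contra hc
    push Not at hc
    have := Coprime.eq_of_forall_invariant_pgroup_le hN hcop hs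
      (inf_le_left : O ⊓ centralizer (A : Set G) ≤ O)
      fun p P hp h1 h2 _ h4 => le_inf h1 (hc p P hp h1 h2 h4)
    exact hnc (this ▸ inf_le_right)
  have := Fact.mk hp
  have hcP : (Nat.card A).Coprime (Nat.card P) := Coprime.coprime_of_le hcop le_rfl hPO
  have hKP : ⁅P, A⁆ ≤ P := Coprime.commutator_le_of_le_normalizer hAP
  have hKK : ⁅⁅P, A⁆, A⁆ = ⁅P, A⁆ := Coprime.commutator_commutator_eq hAP hcP
  set K := ⁅P, A⁆ with hK
  have hK1 : K ≠ ⊥ := fun e => hPn (commutator_eq_bot_iff_le_centralizer.1 e)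
  have hAK : A ≤ normalizer (K : Set G) := Core.le_normalizer_of_commutator_le hKK.le
  have hKs : Group.IsSolvable K := Coprime.isSolvable_of_isPGroup (hP.to_le hKP)
  have hcK : (Nat.card A).Coprime (Nat.card K) := Coprime.coprime_of_le hcP le_rfl hKP
  have hlt : ⁅K, K⁆ < K := Core.commutator_self_lt_of_isSolvable hK1
  refine ⟨K, hAK, ?_, fun a ha v hv => ?_⟩
  · obtain ⟨k, hk, hk'⟩ := SetLike.exists_of_lt hlt
    refine ⟨Abelianization.of ⟨k, hk⟩, 1, fun e => hk' ?_⟩
    rw [← MonoidHom.mem_ker, Abelianization.ker_of, mem_commutator_iff_coe] at e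
    exact e
  obtain ⟨k, rfl⟩ := QuotientGroup.mk_surjective v
  change abAct K A hAK a (Abelianization.of k) = Abelianization.of k at hv
  show Abelianization.of k = 1
  rw [← MonoidHom.mem_ker, Abelianization.ker_of, mem_commutator_iff_coe]
  have hzA : zpowers (a : G) ≤ A := zpowers_le.2 a.2
  have hAD : A ≤ normalizer ((⁅K, K⁆ : Subgroup G) : Set G) :=
    (le_inf hAK hAK).trans (Core.normalizer_inf_le_normalizer_commutator K K)
  obtain ⟨u, hu, hc⟩ := Coprime.exists_mul_mem_centralizer' (hzA.trans hAD)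
    (Coprime.coprime_of_le hcK hzA hlt.le) (Or.inl (Coprime.isSolvable_zpowers _)) (k : G) (by
      rintro _ ⟨i, rfl⟩
      have h1 : abAct K A hAK (a ^ i) (Abelianization.of k) = Abelianization.of k := by
        have : a ∈ (MulAction.stabilizer (MulAut (Abelianization K)) (Abelianization.of k)).comap
            (abAct K A hAK) := hv
        exact Subgroup.zpow_mem _ this i
      exact (abAct_fix_iff K A hAK (a ^ i) k).1 h1)
  rw [Core.centralizer_zpowers] at hc
  have h1 : u * k ∈ K := K.mul_mem (hlt.le hu) k.2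
  have h2 : u * k ∈ centralizer (A : Set G) :=
    hC a a.2 (fun e => ha (Subtype.ext e)) ⟨hPO (hKP h1), hc⟩
  have h3 := Coprime.centralizer_inf_commutator_le hAK hcK ⟨h2, hKK.symm ▸ h1⟩
  have h4 := Subgroup.mul_mem _ (Subgroup.inv_mem _ hu) h3
  rwa [inv_mul_cancel_left] at h4

section TI

variable [Finite G] {H O : Subgroup G}

omit [Finite G] in
theorem ti_centralizer_le [O.Normal] (hTI : Cfsg.IsTISubset (H : Set G))
    (hcop : (Nat.card O).Coprime (Nat.card H)) {a : G} (ha : a ∈ H) (ha1 : a ≠ 1) :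
    O ⊓ centralizer {a} ≤ centralizer (H : Set G) := by
  rintro o ⟨ho, hoa⟩
  have hoN : o ∈ normalizer (H : Set G) := Frob.mem_normalizer_of_isTISubset hTI ha ha1 (by
    rw [mem_centralizer_singleton_iff.1 hoa, mul_inv_cancel_right]; exact ha)
  intro h hh
  have h1 : o * h * o⁻¹ * h⁻¹ ∈ O ⊓ H := ⟨by
    have := O.mul_mem ho (Subgroup.Normal.conj_mem inferInstance _ (O.inv_mem ho) h)
    simpa [mul_assoc] using this, H.mul_mem ((mem_normalizer_iff.1 hoN h).1 hh) (H.inv_mem hh)⟩
  rw [Core.inf_eq_bot_of_coprime_card hcop, mem_bot, mul_inv_eq_one, mul_inv_eq_iff_eq_mul] at h1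
  exact h1.symm

theorem ti_not_le_centralizer [O.Normal] (hTI : Cfsg.IsTISubset (H : Set G)) (hnn : ¬ H.Normal)
    (hcop : (Nat.card O).Coprime (Nat.card H)) (hG : O ⊔ normalizer (H : Set G) = ⊤)
    {A : Subgroup G} (hA : A ≤ H) (hA1 : A ≠ ⊥) : ¬ O ≤ centralizer (A : Set G) := by
  intro h
  obtain ⟨⟨a, ha⟩, ha1⟩ := ne_bot_iff_exists_ne_one.1 hA1
  have h1 : O ≤ centralizer (H : Set G) := fun o ho =>
    ti_centralizer_le hTI hcop (hA ha) (fun e => ha1 (Subtype.ext e))
      ⟨ho, mem_centralizer_singleton_iff.2 (h ho a ha).symm⟩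
  apply hnn
  rw [← normalizer_eq_top_iff, eq_top_iff, ← hG]
  exact sup_le (h1.trans (centralizer_le_normalizer _)) le_rfl

theorem ti_exists_fpf_action [O.Normal] (hTI : Cfsg.IsTISubset (H : Set G)) (hnn : ¬ H.Normal)
    (hcop : (Nat.card O).Coprime (Nat.card H)) (hG : O ⊔ normalizer (H : Set G) = ⊤)
    {A : Subgroup G} (hA : A ≤ H) (hA1 : A ≠ ⊥) (hs : Group.IsSolvable A ∨ Group.IsSolvable O) :
    ∃ (K : Subgroup G) (hA : A ≤ normalizer (K : Set G)), Nontrivial (Abelianization K) ∧
      ∀ a : A, a ≠ 1 → ∀ v, abAct K A hA a v = v → v = 1 :=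
  exists_fpf_action le_normalizer_of_normal (Coprime.coprime_of_le hcop.symm hA le_rfl) hs
    (fun _ ha ha1 => (ti_centralizer_le hTI hcop (hA ha) ha1).trans (centralizer_le hA))
    (ti_not_le_centralizer hTI hnn hcop hG hA hA1)

theorem ti_pqCond [O.Normal] (hTI : Cfsg.IsTISubset (H : Set G)) (hnn : ¬ H.Normal)
    (hcop : (Nat.card O).Coprime (Nat.card H)) (hG : O ⊔ normalizer (H : Set G) = ⊤) :
    Frob.PQCond H := by
  rw [Frob.pqCond_subgroup_iff]
  intro x hx y hy hxp hyp hxy
  have hx1 : x ≠ 1 := fun e => by rw [e, orderOf_one] at hxp; exact Nat.not_prime_one hxp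
  obtain ⟨K, hA, hnt, hf⟩ := ti_exists_fpf_action hTI hnn hcop hG
    (A := zpowers x ⊔ zpowers y) (sup_le (zpowers_le.2 hx) (zpowers_le.2 hy))
    (fun e => hx1 (by
      have : x ∈ zpowers x ⊔ zpowers y := mem_sup_left (mem_zpowers x)
      rwa [e, mem_bot] at this)) (Or.inl (Frob.isSolvable_zpowers_sup hxy))
  exact Frob.pqCond_subgroup_iff.1 (Frob.pqCond_of_action _ hf) x (mem_sup_left (mem_zpowers x))
    y (mem_sup_right (mem_zpowers y)) hxp hyp hxy

theorem core_normal_coprime (m : ℕ) (O : Subgroup G)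
    (hO : O = sSup {K : Subgroup G | K.Normal ∧ (Nat.card K).Coprime m}) :
    O.Normal ∧ (Nat.card O).Coprime m := by
  rw [hO]
  refine Core.sSup_induction_finite (P := fun K : Subgroup G => K.Normal ∧ (Nat.card K).Coprime m)
    ⟨inferInstance, by simp⟩ ?_ fun A hA => hA
  rintro A B ⟨hA, hA'⟩ ⟨hB, hB'⟩
  exact ⟨inferInstance, Nat.Coprime.coprime_dvd_left (Core.card_sup_dvd_of_normal A B)
    (Nat.Coprime.mul_left hA' hB')⟩

theorem ti_sup_normalizer_eq_top (hTI : Cfsg.IsTISubset (H : Set G)) (hnn : ¬ H.Normal)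
    (hHall : (Nat.card H).Coprime (H.subgroupOf (normalizer (H : Set G))).index)
    (hsep : ∃ (n : ℕ) (M : Fin (n + 1) → Subgroup G), M 0 = ⊥ ∧ M (Fin.last n) = ⊤ ∧ Monotone M ∧
      (∀ i, (M i).Normal) ∧ ∀ i : Fin n,
        (∀ q : ℕ, q.Prime → q ∣ (M i.castSucc).relIndex (M i.succ) → q ∣ Nat.card H) ∨
        ((M i.castSucc).relIndex (M i.succ)).Coprime (Nat.card H))
    (hO : O = sSup {K : Subgroup G | K.Normal ∧ (Nat.card K).Coprime (Nat.card H)}) :
    O ⊔ normalizer (H : Set G) = ⊤ := by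
  obtain ⟨hOn, hOc⟩ := core_normal_coprime _ O hO
  have hHG := Frob.coprime_index_of_isTISubset hTI hHall
  obtain ⟨n, M, h0, hl, -, hn, hs⟩ := hsep
  have hO1 : O ≠ ⊤ := by
    intro e
    have := Core.inf_eq_bot_of_coprime_card hOc
    rw [e, top_inf_eq] at this
    exact hnn (this ▸ inferInstance)
  obtain ⟨i, hi1, hi2⟩ : ∃ i : Fin n, M i.castSucc ≤ O ∧ ¬ M i.succ ≤ O := by
    by_contra hc
    push Not at hc
    have : ∀ i : Fin (n + 1), M i ≤ O := by
      intro i
      induction i using Fin.induction with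
      | zero => rw [h0]; exact bot_le
      | succ i ih => exact hc i ih
    have h1 := this (Fin.last n)
    rw [hl, top_le_iff] at h1
    exact hO1 h1
  have := hn i.succ
  set L := O ⊔ M i.succ with hL
  have hd : O.relIndex L ∣ (M i.castSucc).relIndex (M i.succ) := by
    rw [hL, relIndex_sup_left]
    exact relIndex_dvd_of_le_left _ hi1
  have hpi : ∀ q : ℕ, q.Prime → q ∣ O.relIndex L → q ∣ Nat.card H := by
    rcases hs i with h | h
    · exact fun q hq hqd => h q hq (hqd.trans hd)
    · exfalso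
      apply hi2
      refine le_sup_right.trans (show L ≤ O from ?_)
      rw [hO]
      refine le_sSup ⟨inferInstance, ?_⟩
      rw [← Core.card_mul_relIndex_of_le (le_sup_left : O ≤ L)]
      exact Nat.Coprime.mul_left hOc (Nat.Coprime.coprime_dvd_left hd h)
  have hOH : O ⊔ (H ⊓ L) = L := by
    have hle : O ⊔ (H ⊓ L) ≤ L := sup_le le_sup_left inf_le_right
    refine le_antisymm hle (relIndex_eq_one.1 ?_)
    by_contra hne
    obtain ⟨q, hq, hqd⟩ := Nat.exists_prime_and_dvd hne
    have h1 := hpi q hq (hqd.trans (relIndex_dvd_of_le_left _ le_sup_left))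
    have h2 : q ∣ (H ⊓ L).relIndex L := hqd.trans (relIndex_dvd_of_le_left _ le_sup_right)
    rw [inf_relIndex_right] at h2
    have h3 : H.relIndex L ∣ H.index := by
      have h4 := Core.card_inf_mul_relIndex H L
      have h5 := Core.card_sup_mul_card_inf_of_normal H L
      have h6 := Core.card_mul_relIndex_of_le (le_sup_left : H ≤ H ⊔ L)
      have h7 : H.relIndex (H ⊔ L) = H.relIndex L := by
        apply Nat.eq_of_mul_eq_mul_left (Nat.mul_pos (Nat.card_pos (α := H))
          (Nat.card_pos (α := (H ⊓ L : Subgroup G))))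
        rw [mul_right_comm, h6, h5, mul_assoc, h4]
      rw [← h7]
      exact relIndex_dvd_index_of_le le_sup_left
    exact hq.one_lt.ne' (Nat.eq_one_of_dvd_coprimes hHG h1 (h2.trans h3))
  have hH1 : H ⊓ L ≠ ⊥ := by
    intro e
    rw [e, sup_bot_eq] at hOH
    exact hi2 (le_sup_right.trans hOH.ge)
  obtain ⟨⟨x, hxH, hxL⟩, hx1⟩ := ne_bot_iff_exists_ne_one.1 hH1
  have hx1' : x ≠ 1 := fun e => hx1 (Subtype.ext e)
  rw [eq_top_iff]
  intro g _
  have hy : g * x * g⁻¹ ∈ L := Subgroup.Normal.conj_mem inferInstance _ hxL g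
  obtain ⟨k, hk, hky⟩ := Coprime.exists_conj_smul_le_of_le_sup (K := O) (A := zpowers (g * x * g⁻¹))
    (S := H ⊓ L) le_normalizer_of_normal (by rw [hOH]; exact zpowers_le.2 hy) (by
      rw [Nat.card_zpowers, show orderOf (g * x * g⁻¹) = orderOf x from (MulAut.conj g).orderOf_eq x]
      exact Nat.Coprime.coprime_dvd_left (H.orderOf_dvd_natCard hxH) hOc.symm)
    (Or.inl (Coprime.isSolvable_zpowers _))
  have h1 := (Coprime.conj_smul_le_iff.1 hky _ (mem_zpowers _)).1
  have h2 : k * g ∈ normalizer (H : Set G) := Frob.mem_normalizer_of_isTISubset hTI hxH hx1' (by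
    rwa [show k * g * x * (k * g)⁻¹ = k * (g * x * g⁻¹) * k⁻¹ by group])
  have h3 := Subgroup.mul_mem _ (mem_sup_left (O.inv_mem hk))
    (mem_sup_right h2 : k * g ∈ O ⊔ normalizer (H : Set G))
  rwa [inv_mul_cancel_left] at h3

end TI

theorem normal_sup_of_le_normalizer {O N K : Subgroup G} [O.Normal] (hG : O ⊔ N = ⊤)
    (hK : N ≤ normalizer (K : Set G)) : (O ⊔ K).Normal := by
  rw [← normalizer_eq_top_iff, eq_top_iff, ← hG]
  exact sup_le (le_sup_left.trans le_normalizer)
    ((le_inf le_normalizer_of_normal hK).trans (Core.normalizer_inf_le_normalizer_sup O K))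

theorem mulAut_comm_of_isCyclic {V : Type*} [Group V] [Finite V] [h : IsCyclic V] (a b : MulAut V) :
    a * b = b * a := by
  apply (IsCyclic.mulAutMulEquiv V).injective
  rw [map_mul, map_mul, mul_comm]

theorem commutator_le_centralizer_of_isCyclic [Finite G] {C M : Subgroup G} (hC : IsCyclic C)
    (hM : M ≤ normalizer (C : Set G)) : ⁅M, M⁆ ≤ centralizer (C : Set G) := by
  rw [commutator_le]
  intro a ha b hb c hc
  have h1 : C.normalizerMonoidHom ⁅(⟨a, hM ha⟩ : normalizer (C : Set G)), ⟨b, hM hb⟩⁆ = 1 := by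
    rw [map_commutatorElement, commutatorElement_eq_one_iff_mul_comm]
    exact mulAut_comm_of_isCyclic _ _
  have h2 := congrArg Subtype.val (DFunLike.congr_fun h1 ⟨c, hc⟩)
  exact (mul_inv_eq_iff_eq_mul.1 h2).symm

/-- The derived subgroup of a group normalizing a Z-group `H` acts trivially on `H / H'`. -/
theorem zgroup_commutator_le [Finite G] {H M : Subgroup G} [IsZGroup H]
    (hM : M ≤ normalizer (H : Set G)) : ⁅⁅M, M⁆, H⁆ ≤ ⁅H, H⁆ := by
  rw [commutator_le]
  intro x hx h hh
  have hxM : x ∈ M := Core.commutator_le_of_le le_rfl le_rfl hx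
  have h1 : (⟨x, hxM⟩ : M) ∈ (abAct H M hM).ker := by
    have h2 : _root_.commutator M ≤ (abAct H M hM).ker := by
      rw [_root_.commutator, commutator_le]
      intro a _ b _
      rw [MonoidHom.mem_ker, map_commutatorElement, commutatorElement_eq_one_iff_mul_comm]
      exact mulAut_comm_of_isCyclic _ _
    exact h2 ((mem_commutator_iff_coe _).2 hx)
  exact (abAct_fix_iff H M hM ⟨x, hxM⟩ ⟨h, hh⟩).1 (by rw [MonoidHom.mem_ker.1 h1]; rfl)

theorem zgroup_isCyclic_commutator [Finite G] (H : Subgroup G) [IsZGroup H] :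
    IsCyclic (⁅H, H⁆ : Subgroup G) := by
  have := IsZGroup.isCyclic_commutator H
  rw [← map_subtype_commutator]
  exact isCyclic_of_surjective _ ((_root_.commutator H).equivMapOfInjective H.subtype
    H.subtype_injective).surjective

/-- The second derived subgroup of a group normalizing a Z-group `H` centralizes `H`. -/
theorem zgroup_derived_two_le_centralizer [Finite G] {H M : Subgroup G} [IsZGroup H]
    (hM : M ≤ normalizer (H : Set G)) : ⁅⁅M, M⁆, ⁅M, M⁆⁆ ≤ centralizer (H : Set G) := by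
  have h1 := zgroup_commutator_le hM
  have h2 := commutator_le_centralizer_of_isCyclic (zgroup_isCyclic_commutator H)
    ((le_inf hM hM).trans (Core.normalizer_inf_le_normalizer_commutator H H))
  have h3 : ⁅⁅H, ⁅M, M⁆⁆, ⁅M, M⁆⁆ ≤ ⊥ := by
    rw [commutator_comm H]
    refine (commutator_mono h1 le_rfl).trans ?_
    rw [commutator_comm, le_bot_iff, commutator_eq_bot_iff_le_centralizer]
    exact h2
  have h4 := Core.commutator_commutator_self_le h3
  rwa [commutator_comm, le_bot_iff, commutator_eq_bot_iff_le_centralizer] at h4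

/-- In a Z-group, the centralizer of the derived subgroup is commutative. -/
theorem zgroup_isMulCommutative_centralizer [Finite G] (H : Subgroup G) [IsZGroup H] :
    IsMulCommutative (H ⊓ centralizer ((⁅H, H⁆ : Subgroup G) : Set G) : Subgroup G) := by
  refine MonoidHom.isMulCommutative_of_isCyclic_of_ker_le_center
    (Abelianization.of.comp (inclusion (inf_le_left : _ ≤ H))) ?_
  intro x hx
  rw [MonoidHom.mem_ker, MonoidHom.comp_apply, ← MonoidHom.mem_ker, Abelianization.ker_of,
    mem_commutator_iff_coe] at hx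
  rw [mem_center_iff]
  intro y
  exact Subtype.ext (y.2.2 _ hx).symm

end CfsgLib.FTApp
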